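import Mathlib
import Cfsg.Prelude.Def_Classical
import Cfsg.Agent.S0282
import Cfsg.Agent.Lib.Classical.UnitaryCentre
import Cfsg.Agent.Lib.UThreeTwo.Model

/-!
The structure `3².Q₈` of `PSU_3(2)`.
-/

set_option autoImplicit false

namespace Cfsg.UThreeTwo

open Matrix

variable {F : Type*} [Field F] [Fintype F]

theorem structure_thm (hF : Fintype.card F = 4) :
    ∃ (N : Subgroup (Cfsg.PSU 3 F 2)) (_ : N.Normal), Nat.card N = 9 ∧ (∀ x ∈ N, x ^ 3 = 1) ∧
      Nonempty (Cfsg.PSU 3 F 2 ⧸ N ≃* QuaternionGroup 2) := by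
  classical
  haveI : Fact (Nat.Prime 3) := ⟨Nat.prime_three⟩
  obtain ⟨ω, hω⟩ := exists_prime_orderOf_dvd_card' (G := Fˣ) 3 (by rw [Nat.card_units, Nat.card_eq_fintype_card, hF])
  have hω1 : (ω : F) ≠ 1 := fun e => by rw [Units.val_eq_one.1 e, orderOf_one] at hω; omega
  have hω3 : (ω : F) ^ 3 = 1 := by rw [← Units.val_pow_eq_pow_val, ← hω, pow_orderOf_eq_one]; rfl
  have h2 : (2 : F) = 0 := by
    have h : ((4 : ℕ) : F) = 0 := hF ▸ FiniteField.cast_card_eq_zero F
    exact mul_self_eq_zero.1 (show (2 : F) * 2 = 0 by rw [← h]; norm_num)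
  haveI : CharP F 2 := CharTwo.of_one_ne_zero_of_two_eq_zero one_ne_zero h2
  have hrel : (1 : F) + ω + (ω : F) ^ 2 = 0 :=
    (mul_eq_zero.1 (show ((ω : F) - 1) * (1 + ω + (ω : F) ^ 2) = 0 by linear_combination hω3)).resolve_left (sub_ne_zero.2 hω1)
  have hω0 : (ω : F) ≠ 0 := ω.ne_zero
  let φ : F4 → F := fun a => match a with
    | .z => 0
    | .o => 1
    | .w => ω
    | .v => 1 + ω
  have hadd : ∀ a b, φ (F4.add a b) = φ a + φ b := by
    intro a b
    cases a <;> cases b <;> simp only [φ, F4.add] <;> first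
      | ring1
      | linear_combination h2
      | linear_combination -h2
      | linear_combination (ω : F) * h2
      | linear_combination -(ω : F) * h2
      | linear_combination ((ω : F) + 1) * h2
      | linear_combination -((ω : F) + 1) * h2
  have hmul : ∀ a b, φ (F4.mul a b) = φ a * φ b := by
    intro a b
    cases a <;> cases b <;> simp only [φ, F4.mul] <;> first
      | ring1
      | linear_combination -hrel + ((ω : F) + 1) * h2
      | linear_combination -hrel + h2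
      | linear_combination -hrel
      | linear_combination -hrel + (ω : F) * h2
      | linear_combination hrel - h2
      | linear_combination hrel - (ω : F) * h2
      | linear_combination hrel - ((ω : F) + 1) * h2
  have hinj : Function.Injective φ := by
    intro a b h
    cases a <;> cases b <;> simp only [φ] at h <;> first
      | rfl
      | exact absurd h one_ne_zero
      | exact absurd h.symm one_ne_zero
      | exact absurd h hω0
      | exact absurd h.symm hω0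
      | exact absurd h hω1
      | exact absurd h.symm hω1
      | exact absurd (by linear_combination h + hrel : (ω : F) ^ 2 = 0) (pow_ne_zero 2 hω0)
      | exact absurd (by linear_combination -h + hrel : (ω : F) ^ 2 = 0) (pow_ne_zero 2 hω0)
      | exact absurd (by linear_combination h : (ω : F) = 0) hω0
      | exact absurd (by linear_combination -h : (ω : F) = 0) hω0
      | exact absurd (by linear_combination h : (1 : F) = 0) one_ne_zero
      | exact absurd (by linear_combination -h : (1 : F) = 0) one_ne_zero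
  let mat : M3 → Matrix (Fin 3) (Fin 3) F := fun X => Matrix.of fun i j => φ (X i j)
  have hmat : Function.Injective mat := fun X Y h => funext fun i => funext fun j => hinj (congrFun (congrFun h i) j)
  have hmm : ∀ X Y, mat (mm X Y) = mat X * mat Y := fun X Y => by
    ext i j
    simp only [mat, mm, Matrix.of_apply, Matrix.mul_apply, Fin.sum_univ_three, hadd, hmul]
  have hI : mat I3 = 1 := by
    ext i j
    fin_cases i <;> fin_cases j <;> simp [mat, I3, φ]
  have hdt : ∀ X, (mat X).det = φ (dt X) := fun X => by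
    rw [Matrix.det_fin_three]
    simp only [mat, dt, Matrix.of_apply, hadd, hmul, sub_eq_add_neg, CharTwo.neg_eq]
  have helt : ∀ X, dt X = .o ∧ mm (cj X) X = I3 → ∃ g : Cfsg.SU 3 F 2, (g.1 : Matrix (Fin 3) (Fin 3) F) = mat X := by
    rintro X ⟨hd, hu⟩
    refine ⟨⟨⟨mat X, by rw [hdt, hd]⟩, ?_⟩, rfl⟩
    intro u v
    show Cfsg.hermForm 3 F 2 (mat X *ᵥ u) (mat X *ᵥ v) = Cfsg.hermForm 3 F 2 u v
    have h1 : ((mat X).map (frobenius F 2))ᵀ * mat X = 1 := by
      rw [show ((mat X).map (frobenius F 2))ᵀ = mat (cj X) by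
        ext i j; simp [mat, cj, hmul, frobenius_def, pow_two], ← hmm, hu, hI]
    have h2' : (mat X)ᵀ * (mat X).map (frobenius F 2) = 1 := by
      have := congrArg Matrix.transpose h1
      rwa [Matrix.transpose_mul, Matrix.transpose_transpose, Matrix.transpose_one] at this
    have hh : ∀ a b : Fin 3 → F, Cfsg.hermForm 3 F 2 a b = a ⬝ᵥ (fun i => frobenius F 2 (b i)) := fun a b => rfl
    have hv : (fun i => frobenius F 2 ((mat X *ᵥ v) i)) = (mat X).map (frobenius F 2) *ᵥ (fun i => frobenius F 2 (v i)) :=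
      funext fun i => RingHom.map_mulVec (frobenius F 2) (mat X) v i
    rw [hh, hh, hv, ← Matrix.vecMul_transpose, ← Matrix.dotProduct_mulVec, Matrix.mulVec_mulVec, h2', Matrix.one_mulVec]
  choose e he using fun a => helt (E a) (E_unit a)
  choose r hr using fun x => helt (R x) (R_unit x)
  have ext' : ∀ g g' : Cfsg.SU 3 F 2, (g.1 : Matrix (Fin 3) (Fin 3) F) = g'.1 → g = g' :=
    fun g g' h => Subtype.ext (Subtype.ext h)
  have hco : ∀ g g' : Cfsg.SU 3 F 2, (((g * g') : Cfsg.SU 3 F 2).1 : Matrix (Fin 3) (Fin 3) F) = (g.1 : Matrix (Fin 3) (Fin 3) F) * (g'.1 : Matrix (Fin 3) (Fin 3) F) :=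
    fun g g' => rfl
  have hone : ((1 : Cfsg.SU 3 F 2).1 : Matrix (Fin 3) (Fin 3) F) = 1 := rfl
  have he1 : e (0, 0, 0) = 1 := ext' _ _ (by rw [he, E_one, hI, hone])
  have hr1 : r 1 = 1 := ext' _ _ (by rw [hr, R_one, hI, hone])
  let N₀ : Subgroup (Cfsg.SU 3 F 2) :=
    { carrier := Set.range e
      one_mem' := ⟨_, he1⟩
      mul_mem' := by
        rintro _ _ ⟨a, rfl⟩ ⟨b, rfl⟩
        obtain ⟨c, hc⟩ := E_mul a b
        exact ⟨c, ext' _ _ (by rw [hco, he, he, he, ← hmm, hc])⟩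
      inv_mem' := by
        rintro _ ⟨a, rfl⟩
        obtain ⟨b, hb⟩ := E_inv a
        exact ⟨b, eq_inv_of_mul_eq_one_right (ext' _ _ (by rw [hco, he, he, ← hmm, hb, hI, hone]))⟩ }
  have hN₀ : ∀ g, g ∈ N₀ ↔ ∃ a, e a = g := fun g => Iff.rfl
  have hrm : ∀ x y, ∃ c, r x * r y = r (x * y) * e c := fun x y => by
    obtain ⟨c, hc⟩ := R_mul x y
    exact ⟨c, ext' _ _ (by rw [hco, hco, hr, hr, hr, he, ← hmm, ← hmm, hc])⟩
  have hnotE : ∀ x, r x ∈ N₀ → x = 1 := by
    rintro x ⟨a, ha⟩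
    exact R_notE x a (hmat (by rw [← hr, ← he, ha]))
  have hcanc : ∀ x y, (r x)⁻¹ * r y ∈ N₀ → x = y := fun x y h => by
    obtain ⟨c, hc⟩ := hrm x (x⁻¹ * y)
    rw [mul_inv_cancel_left] at hc
    have h3 : r (x⁻¹ * y) ∈ N₀ := by
      rw [show r (x⁻¹ * y) = (r x)⁻¹ * r y * e c by rw [mul_assoc, ← hc]; group]
      exact N₀.mul_mem h ⟨c, rfl⟩
    exact inv_mul_eq_one.1 (hnotE _ h3)
  -- orders
  have hcardP : Nat.card (Cfsg.PSU 3 F 2) = 72 := (Cfsg.Agent.S0282.result hF).1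
  have hcardZ : Nat.card (Subgroup.center (Cfsg.SU 3 F 2)) = 3 := by
    rw [Cfsg.Lib.Classical.UnitaryCentre.card_center (by rw [hF]; norm_num) (by norm_num)]
    rfl
  have hcard : Nat.card (Cfsg.SU 3 F 2) = 216 := by
    rw [Subgroup.card_eq_card_quotient_mul_card_subgroup (Subgroup.center (Cfsg.SU 3 F 2)), hcardP, hcardZ]
  have hcardQ : Nat.card (QuaternionGroup 2) = 8 := by rw [Nat.card_eq_fintype_card, QuaternionGroup.card]
  let Φ : QuaternionGroup 2 × (Fin 3 × Fin 3 × Fin 3) → Cfsg.SU 3 F 2 := fun p => r p.1 * e p.2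
  have hΦinj : Function.Injective Φ := by
    rintro ⟨x, a⟩ ⟨y, b⟩ h
    simp only [Φ] at h
    have hxy : x = y := hcanc x y (by
      rw [show (r x)⁻¹ * r y = e a * (e b)⁻¹ by rw [inv_mul_eq_iff_eq_mul, ← mul_assoc, h, mul_inv_cancel_right]]
      exact N₀.mul_mem ⟨a, rfl⟩ (N₀.inv_mem ⟨b, rfl⟩))
    subst hxy
    exact Prod.ext rfl (E_inj a b (hmat (by rw [← he, ← he, mul_left_cancel h])))
  have hΦ : Function.Surjective Φ := by
    refine ((Nat.bijective_iff_injective_and_card Φ).2 ⟨hΦinj, ?_⟩).2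
    rw [hcard, Nat.card_prod, hcardQ, Nat.card_eq_fintype_card]
    rfl
  have hnorm : N₀.Normal := by
    constructor
    rintro _ ⟨a, rfl⟩ g
    obtain ⟨⟨x, b⟩, rfl⟩ := hΦ g
    simp only [Φ]
    have h1 : e b * e a * (e b)⁻¹ ∈ N₀ := N₀.mul_mem (N₀.mul_mem ⟨b, rfl⟩ ⟨a, rfl⟩) (N₀.inv_mem ⟨b, rfl⟩)
    obtain ⟨c, hc⟩ := h1
    obtain ⟨d, hd⟩ := R_conj x c
    refine ⟨d, ?_⟩
    have : r x * e c = e d * r x := ext' _ _ (by rw [hco, hco, hr, he, he, ← hmm, ← hmm, hd])
    rw [show r x * e b * e a * (r x * e b)⁻¹ = r x * (e b * e a * (e b)⁻¹) * (r x)⁻¹ by group, ← hc, this,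
      mul_inv_cancel_right]
  have hec : ∀ j, e (j, 0, 0) ∈ Subgroup.center (Cfsg.SU 3 F 2) := fun j => by
    refine Subgroup.mem_center_iff.2 fun g => ext' _ _ ?_
    rw [hco, hco, he, show mat (E (j, 0, 0)) = φ (om j) • 1 by
      ext i k
      simp only [mat, Matrix.of_apply, E_scalar, Matrix.smul_apply, Matrix.one_apply, smul_eq_mul]
      split_ifs <;> simp [φ], Matrix.mul_smul, Matrix.mul_one, Matrix.smul_mul, Matrix.one_mul]
  have hZ : Subgroup.center (Cfsg.SU 3 F 2) ≤ N₀ := by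
    let ψ : Fin 3 → Subgroup.center (Cfsg.SU 3 F 2) := fun j => ⟨e (j, 0, 0), hec j⟩
    have hψ : Function.Bijective ψ := (Nat.bijective_iff_injective_and_card ψ).2 ⟨fun i j h => by
      simpa using congrArg (fun a => a.1) (E_inj (i, 0, 0) (j, 0, 0) (hmat (by rw [← he, ← he, show e (i, 0, 0) = e (j, 0, 0) from congrArg Subtype.val h]))),
      by rw [hcardZ, Nat.card_eq_fintype_card]; rfl⟩
    intro z hz
    obtain ⟨j, hj⟩ := hψ.2 ⟨z, hz⟩
    exact ⟨(j, 0, 0), congrArg Subtype.val hj⟩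
  let π : Cfsg.SU 3 F 2 →* Cfsg.PSU 3 F 2 := QuotientGroup.mk' _
  let N := N₀.map π
  haveI hNn : N.Normal := hnorm.map π (QuotientGroup.mk'_surjective _)
  have hmem : ∀ g, π g ∈ N → g ∈ N₀ := by
    intro g hg
    obtain ⟨g', hg', hgg⟩ := hg
    obtain ⟨z, hz, rfl⟩ := (QuotientGroup.mk'_eq_mk' _).1 hgg
    exact N₀.mul_mem hg' (hZ hz)
  have hπc : ∀ c, π (e c) ∈ N := fun c => ⟨e c, ⟨c, rfl⟩, rfl⟩
  let Ψ : QuaternionGroup 2 →* Cfsg.PSU 3 F 2 ⧸ N :=
    MonoidHom.mk' (fun x => QuotientGroup.mk (π (r x))) fun x y => by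
      obtain ⟨c, hc⟩ := hrm x y
      rw [← QuotientGroup.mk_mul, ← map_mul, hc, map_mul]
      exact (QuotientGroup.eq.2 (by rw [inv_mul_cancel_left]; exact hπc c))
  have hΨ : Function.Bijective Ψ := by
    refine ⟨(injective_iff_map_eq_one Ψ).2 fun x hx => hnotE x (hmem _ ((QuotientGroup.eq_one_iff _).1 hx)), ?_⟩
    intro c
    obtain ⟨g, rfl⟩ := QuotientGroup.mk_surjective c
    obtain ⟨h, rfl⟩ := QuotientGroup.mk'_surjective _ g
    obtain ⟨⟨x, a⟩, rfl⟩ := hΦ h
    refine ⟨x, ?_⟩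
    show QuotientGroup.mk (π (r x)) = QuotientGroup.mk (π (r x * e a))
    refine QuotientGroup.eq.2 ?_
    rw [map_mul, inv_mul_cancel_left]
    exact hπc a
  refine ⟨N, hNn, ?_, ?_, ⟨(MulEquiv.ofBijective Ψ hΨ).symm⟩⟩
  · have h := N.card_eq_card_quotient_mul_card_subgroup
    rw [← Nat.card_congr (Equiv.ofBijective Ψ hΨ), hcardQ, hcardP] at h
    omega
  · rintro _ ⟨_, ⟨a, rfl⟩, rfl⟩
    rw [← map_pow]
    obtain ⟨j, hj⟩ := E_cube a
    rw [show e a ^ 3 = e (j, 0, 0) from ext' _ _ (by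
      rw [pow_succ, pow_two, hco, hco, he, he, ← hmm, ← hmm, hj])]
    exact (QuotientGroup.eq_one_iff _).2 (hec j)

end Cfsg.UThreeTwo
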